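import Cfsg.Agent.Lib.Helper19.Solz.Defs

set_option autoImplicit false

namespace Cfsg.Agent.Lib.Helper19.Solz

open MulAction

variable {G Ω : Type*} [Group G] [MulAction G Ω] {q : ℕ}

theorem exists_ne2 {Ω : Type*} [Finite Ω] (h : 3 ≤ Nat.card Ω) (a b : Ω) : ∃ c, c ≠ a ∧ c ≠ b := by
  by_contra hc
  push Not at hc
  have h1 : (Set.univ : Set Ω) ⊆ {a, b} := by
    intro c _
    by_cases hca : c = a
    · exact Or.inl hca
    · exact Or.inr (hc c hca)
  have h2 := Set.ncard_le_ncard h1 (Set.toFinite _)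
  rw [Set.ncard_univ] at h2
  have h3 := Set.ncard_insert_le a ({b} : Set Ω)
  rw [Set.ncard_singleton] at h3
  omega

/-- the embedding given by three distinct points -/
def emb3 {Ω : Type*} (a b c : Ω) (hab : a ≠ b) (hac : a ≠ c) (hbc : b ≠ c) : Fin 3 ↪ Ω :=
  ⟨![a, b, c], by
    intro i j hij
    fin_cases i <;> fin_cases j <;> simp_all [eq_comm]⟩

/-- sharp 3-transitivity -/
theorem S3.trans3 (h : S3 G Ω q) (v w : Fin 3 ↪ Ω) : ∃ g : G, ∀ i, g • v i = w i := by
  have := h.finG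
  have := h.finΩ
  let f : G → (Fin 3 ↪ Ω) := fun g =>
    ⟨fun i => g • v i, fun i j hij => v.injective (MulAction.injective g hij)⟩
  have hf : Function.Injective f := by
    intro g g' hgg
    have hi : ∀ i, g • v i = g' • v i := fun i => congrArg (fun e : Fin 3 ↪ Ω => e i) hgg
    have : g'⁻¹ * g = 1 := h.fix3 _ (v 0) (v 1) (v 2) (by simp) (by simp) (by simp)
      (by rw [mul_smul, hi, inv_smul_smul]) (by rw [mul_smul, hi, inv_smul_smul])
      (by rw [mul_smul, hi, inv_smul_smul])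
    exact (inv_mul_eq_one.1 this).symm
  have hcard : Nat.card G = Nat.card (Fin 3 ↪ Ω) := by
    have := Fintype.ofFinite Ω
    rw [Nat.card_eq_fintype_card (α := Fin 3 ↪ Ω), Fintype.card_embedding_eq,
      ← Nat.card_eq_fintype_card, h.cardΩ, h.cardG]
    obtain ⟨m, rfl⟩ : ∃ m, q = m + 1 := ⟨q - 1, by have := h.hq4; omega⟩
    simp [Nat.descFactorial]
    ring
  have hb := (Nat.bijective_iff_injective_and_card f).2 ⟨hf, hcard⟩
  obtain ⟨g, hg⟩ := hb.2 w
  exact ⟨g, fun i => congrArg (fun e : Fin 3 ↪ Ω => e i) hg⟩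

theorem S3.trans3' (h : S3 G Ω q) {a b c a' b' c' : Ω} (hab : a ≠ b) (hac : a ≠ c) (hbc : b ≠ c)
    (hab' : a' ≠ b') (hac' : a' ≠ c') (hbc' : b' ≠ c') :
    ∃ g : G, g • a = a' ∧ g • b = b' ∧ g • c = c' := by
  obtain ⟨g, hg⟩ := h.trans3 (emb3 a b c hab hac hbc) (emb3 a' b' c' hab' hac' hbc')
  exact ⟨g, hg 0, hg 1, hg 2⟩

/-- orbit-stabiliser three times: `|G| ≤ (q+1)|G_a| ≤ (q+1) q |G_ab| ≤ (q+1) q (q-1)`, so equalities. -/
theorem S3.basic (h : S3 G Ω q) :
    (∀ a b : Ω, ∃ g : G, g • a = b) ∧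
    (∀ a : Ω, Nat.card (stabilizer G a) = q * (q - 1)) ∧
    (∀ a b : Ω, a ≠ b → Nat.card ↥(stabilizer G a ⊓ stabilizer G b) = q - 1) ∧
    (∀ a b c : Ω, a ≠ b → a ≠ c → ∃ g : G, g • a = a ∧ g • b = c) := by
  have := h.finG
  have := h.finΩ
  have h3 : 3 ≤ Nat.card Ω := by rw [h.cardΩ]; have := h.hq4; omega
  have hne : ∀ a b : Ω, ∃ c, c ≠ a ∧ c ≠ b := exists_ne2 h3
  have htr : ∀ a b : Ω, ∃ g : G, g • a = b := by
    intro a b
    obtain ⟨a1, ha1, -⟩ := hne a a
    obtain ⟨a2, ha2, ha2'⟩ := hne a a1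
    obtain ⟨b1, hb1, -⟩ := hne b b
    obtain ⟨b2, hb2, hb2'⟩ := hne b b1
    obtain ⟨g, hg, -⟩ := h.trans3' ha1.symm ha2.symm ha2'.symm hb1.symm hb2.symm hb2'.symm
    exact ⟨g, hg⟩
  refine ⟨htr, ?_, ?_, ?_⟩
  · intro a
    have h1 := (stabilizer G a).card_mul_index
    rw [MulAction.index_stabilizer] at h1
    have h2 : orbit G a = Set.univ := by
      ext b
      simp only [Set.mem_univ, iff_true]
      obtain ⟨g, hg⟩ := htr a b
      exact ⟨g, hg⟩
    rw [h2, Set.ncard_univ, h.cardΩ, h.cardG] at h1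
    have : (q + 1) * Nat.card (stabilizer G a) = (q + 1) * (q * (q - 1)) := by
      rw [mul_comm, h1]; ring
    exact Nat.eq_of_mul_eq_mul_left (Nat.succ_pos q) this
  · intro a b hab
    obtain ⟨c, hca, hcb⟩ := hne a b
    let f : ↥(stabilizer G a ⊓ stabilizer G b) → {x : Ω // x ∈ ({a, b} : Set Ω)ᶜ} := fun g =>
      ⟨(g : G) • c, by
        have hga : (g : G) • a = a := g.2.1
        have hgb : (g : G) • b = b := g.2.2
        rintro (hx | hx)
        · exact hca (MulAction.injective (g : G) (hx.trans hga.symm))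
        · have hx' : (g : G) • c = b := hx
          exact hcb (MulAction.injective (g : G) (hx'.trans hgb.symm))⟩
    have hf : Function.Bijective f := by
      constructor
      · intro g g' hgg
        have hc : (g : G) • c = (g' : G) • c := congrArg Subtype.val hgg
        have hga : (g : G) • a = a := g.2.1
        have hgb : (g : G) • b = b := g.2.2
        have hga' : (g' : G) • a = a := g'.2.1
        have hgb' : (g' : G) • b = b := g'.2.2
        have : (g' : G)⁻¹ * g = 1 := h.fix3 _ a b c hab hca.symm hcb.symm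
          (by rw [mul_smul, hga, inv_smul_eq_iff, hga']) (by rw [mul_smul, hgb, inv_smul_eq_iff, hgb'])
          (by rw [mul_smul, hc, inv_smul_smul])
        exact Subtype.ext (inv_mul_eq_one.1 this).symm
      · rintro ⟨x, hx⟩
        have hxa : x ≠ a := fun hh => hx (Or.inl hh)
        have hxb : x ≠ b := fun hh => hx (Or.inr hh)
        obtain ⟨g, hga, hgb, hgc⟩ := h.trans3' hab hca.symm hcb.symm hab hxa.symm hxb.symm
        exact ⟨⟨g, hga, hgb⟩, Subtype.ext hgc⟩
    rw [Nat.card_congr (Equiv.ofBijective f hf), Nat.card_coe_set_eq]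
    have h1 := Set.ncard_add_ncard_compl ({a, b} : Set Ω)
    rw [Set.ncard_pair hab, h.cardΩ] at h1
    omega
  · intro a b c hab hac
    obtain ⟨x, hxa, hxb⟩ := hne a b
    obtain ⟨y, hya, hyc⟩ := hne a c
    obtain ⟨g, hga, hgb, -⟩ := h.trans3' hab hxa.symm hxb.symm hac hya.symm hyc.symm
    exact ⟨g, hga, hgb⟩

end Cfsg.Agent.Lib.Helper19.Solz
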