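import Cfsg.Agent.Lib.Helper19.Solz.Fix

set_option autoImplicit false

namespace Cfsg.Agent.Lib.Helper19.Solz

open MulAction

variable {G Ω : Type*} [Group G] [MulAction G Ω] {q : ℕ}

/-- `S` Sylow 2 in `M`, `|S| = q`; `S` fixes a point `c` (`q+1` odd); `S` is semiregular, hence regular, on the other
`q` points (`two_elt_fix2`).  If `M ≰ G_c`, the `M`-orbit of `c` is `S`-invariant and `≠ {c}`, so it is everything and
`q + 1 ∣ q (q-1)`: impossible.  So `M ≤ G_c`, equal by orders. -/
theorem S3.borel_of_card (h : S3 G Ω q) (M : Subgroup G) (hM : Nat.card M = q * (q - 1)) :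
    ∃ c : Ω, M = stabilizer G c := by
  have := h.finG
  have := h.finΩ
  have : Fact (Nat.Prime 2) := ⟨Nat.prime_two⟩
  obtain ⟨n, hn⟩ := h.hpow
  have h4 := h.hq4
  have hn0 : n ≠ 0 := by rintro rfl; simp at hn; omega
  have heven : Even q := by rw [hn]; exact Nat.even_pow.2 ⟨even_two, hn0⟩
  -- a subgroup of order `q` of `M`
  obtain ⟨K, hK⟩ : ∃ K : Subgroup M, Nat.card K = 2 ^ n :=
    Sylow.exists_subgroup_card_pow_prime 2 (by rw [hM, ← hn]; exact dvd_mul_right _ _)
  obtain ⟨S, hSM, hS⟩ : ∃ S : Subgroup G, S ≤ M ∧ Nat.card S = q := by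
    refine ⟨K.map M.subtype, ?_, ?_⟩
    · rintro _ ⟨y, -, rfl⟩
      exact y.2
    · rw [← Nat.card_congr (K.equivMapOfInjective M.subtype M.subtype_injective).toEquiv, hK, hn]
  have hSp : IsPGroup 2 S := IsPGroup.of_card (n := n) (by rw [hS, hn])
  obtain ⟨c, hc⟩ : (fixedPoints S Ω).Nonempty := by
    apply hSp.nonempty_fixed_point_of_prime_not_dvd_card
    rw [h.cardΩ]
    intro h2
    have : Odd (q + 1) := heven.add_one
    rw [← Nat.not_even_iff_odd] at this
    exact this (even_iff_two_dvd.2 h2)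
  have hcS : ∀ s ∈ S, s • c = c := fun s hs => hc ⟨s, hs⟩
  have hpow : ∀ s ∈ S, s ^ 2 ^ n = 1 := by
    intro s hs
    have : (⟨s, hs⟩ : S) ^ Nat.card S = 1 := pow_card_eq_one'
    rw [hS, hn] at this
    exact congrArg Subtype.val this
  -- `S` is regular off `c`
  have hreg : ∀ d e : Ω, d ≠ c → e ≠ c → ∃ s ∈ S, s • d = e := by
    intro d e hd he
    let f : S → {x : Ω // x ∈ ({c} : Set Ω)ᶜ} := fun s =>
      ⟨(s : G) • d, by
        intro hx
        have hx' : (s : G) • d = c := hx
        exact hd (MulAction.injective (s : G) (hx'.trans (hcS s s.2).symm))⟩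
    have hf : Function.Injective f := by
      intro s s' hss
      have hss' : (s : G) • d = (s' : G) • d := congrArg Subtype.val hss
      have : (s' : G)⁻¹ * s = 1 := by
        apply h.two_elt_fix2 _ n (hpow _ (S.mul_mem (S.inv_mem s'.2) s.2)) c d hd.symm
        · exact hcS _ (S.mul_mem (S.inv_mem s'.2) s.2)
        · rw [mul_smul, hss', inv_smul_smul]
      exact Subtype.ext (inv_mul_eq_one.1 this).symm
    have hcard : Nat.card S = Nat.card {x : Ω // x ∈ ({c} : Set Ω)ᶜ} := by
      rw [Nat.card_coe_set_eq, hS]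
      have h1 := Set.ncard_add_ncard_compl ({c} : Set Ω)
      rw [Set.ncard_singleton, h.cardΩ] at h1
      omega
    have hb := (Nat.bijective_iff_injective_and_card f).2 ⟨hf, hcard⟩
    obtain ⟨s, hs⟩ := hb.2 ⟨e, he⟩
    exact ⟨s, s.2, congrArg Subtype.val hs⟩
  have hle : M ≤ stabilizer G c := by
    by_contra hnle
    obtain ⟨m, hmM, hmc⟩ := SetLike.not_le_iff_exists.1 hnle
    have hmc' : m • c ≠ c := hmc
    have horb : orbit M c = Set.univ := by
      ext e
      simp only [Set.mem_univ, iff_true]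
      by_cases he : e = c
      · rw [he]; exact mem_orbit_self c
      · obtain ⟨s, hs, hse⟩ := hreg (m • c) e hmc' he
        refine ⟨⟨s * m, M.mul_mem (hSM hs) hmM⟩, ?_⟩
        change (s * m) • c = e
        rw [mul_smul, hse]
    have h1 : (stabilizer M c).index = q + 1 := by
      rw [MulAction.index_stabilizer, horb, Set.ncard_univ, h.cardΩ]
    have h2 : q + 1 ∣ q * (q - 1) := by
      rw [← h1, ← hM]; exact Subgroup.index_dvd_card _
    have hcop : Nat.Coprime (q + 1) q := by simp
    have h3 : q + 1 ∣ q - 1 := hcop.dvd_of_dvd_mul_left h2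
    have := Nat.le_of_dvd (by omega) h3
    omega
  refine ⟨c, Subgroup.eq_of_le_of_card_ge hle ?_⟩
  rw [hM, (h.basic).2.1 c]

end Cfsg.Agent.Lib.Helper19.Solz
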