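import Cfsg.Agent.Lib.Helper19.Solz.Fix2

set_option autoImplicit false

namespace Cfsg.Agent.Lib.Helper19.Solz

open MulAction

variable {G Ω : Type*} [Group G] [MulAction G Ω] {q : ℕ}

theorem S3.cent_semiregular (h : S3 G Ω q) (x : G) (hx1 : x ≠ 1) (hx : orderOf x ∣ q + 1) (ω : Ω)
    (g : G) (hg : g * x * g⁻¹ = x) (hω : g • ω = ω) : g = 1 := by
  have hcomm : g * x = x * g := by
    calc g * x = g * x * g⁻¹ * g := by group
      _ = x * g := by rw [hg]
  have hodd : Odd (q + 1) := by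
    obtain ⟨n, hn⟩ := h.hpow
    have h4 := h.hq4
    have hn0 : n ≠ 0 := by rintro rfl; simp at hn; omega
    have : Even q := by rw [hn]; exact Nat.even_pow.2 ⟨even_two, hn0⟩
    exact this.add_one
  have hx2 : x ^ 2 ≠ 1 := by
    intro h2
    have hd2 : orderOf x ∣ 2 := orderOf_dvd_of_pow_eq_one h2
    have hd : orderOf x ∣ Nat.gcd 2 (q + 1) := Nat.dvd_gcd hd2 hx
    have hg1 : Nat.gcd 2 (q + 1) = 1 := by
      rw [← Nat.coprime_iff_gcd_eq_one, Nat.coprime_two_left]; exact hodd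
    rw [hg1, Nat.dvd_one, orderOf_eq_one_iff] at hd
    exact hx1 hd
  have hx2' : orderOf (x ^ 2) ∣ q + 1 := (orderOf_pow_dvd 2).trans hx
  have n1 : ω ≠ x • ω := fun hh => h.fix_nonsplit x hx1 hx ω hh.symm
  have n2 : ω ≠ x • x • ω := by
    intro hh
    apply h.fix_nonsplit (x ^ 2) hx2 hx2' ω
    rw [pow_two, mul_smul]; exact hh.symm
  have n3 : x • ω ≠ x • x • ω := fun hh => n1 (MulAction.injective x hh)
  have f1 : g • x • ω = x • ω := by rw [← mul_smul, hcomm, mul_smul, hω]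
  have f2 : g • x • x • ω = x • x • ω := by
    rw [← mul_smul, hcomm, mul_smul, f1]
  exact h.fix3 g ω (x • ω) (x • x • ω) n1 n2 n3 hω f1 f2

theorem S3.card_conj_le (h : S3 G Ω q) (x : G) (hx1 : x ≠ 1) (hx : orderOf x ∣ q + 1) (z : G) :
    Set.ncard {y : G | y * x * y⁻¹ = z} ≤ q + 1 := by
  have := h.finG
  have := h.finΩ
  have hne : Nonempty Ω := by
    have : Nat.card Ω ≠ 0 := by rw [h.cardΩ]; omega
    exact (Nat.card_pos_iff.1 (Nat.pos_of_ne_zero this)).1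
  obtain ⟨ω⟩ := hne
  have h1 : Set.ncard {y : G | y * x * y⁻¹ = z} ≤ Set.ncard (Set.univ : Set Ω) := by
    apply Set.ncard_le_ncard_of_injOn (fun y : G => y • ω) (fun _ _ => Set.mem_univ _) _ (Set.toFinite _)
    intro y hy y' hy' hyy
    have hy1 : y * x * y⁻¹ = z := hy
    have hy2 : y' * x * y'⁻¹ = z := hy'
    have hyy' : y • ω = y' • ω := hyy
    have : y'⁻¹ * y = 1 := by
      apply h.cent_semiregular x hx1 hx ω
      · calc y'⁻¹ * y * x * (y'⁻¹ * y)⁻¹ = y'⁻¹ * (y * x * y⁻¹) * y' := by group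
          _ = y'⁻¹ * (y' * x * y'⁻¹) * y' := by rw [hy1, hy2]
          _ = x := by group
      · rw [mul_smul, hyy', inv_smul_smul]
    exact (inv_mul_eq_one.1 this).symm
  rwa [Set.ncard_univ, h.cardΩ] at h1

/-- `C_G(x)` is semiregular: if `g` commutes with `x` and fixes `ω`, it fixes `ω, xω, x²ω`, distinct by
`fix_nonsplit` for `x` and `x²` (`x² ≠ 1`: odd order). So `g ↦ g • ω` is injective on `C_G(x)`: `|C_G(x)| ≤ q+1`.
The inverting elements are empty or one coset of `C_G(x)`. -/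
theorem S3.card_extcent_le (h : S3 G Ω q) (x : G) (hx1 : x ≠ 1) (hx : orderOf x ∣ q + 1) :
    Nat.card {y : G // y * x * y⁻¹ = x ∨ y * x * y⁻¹ = x⁻¹} ≤ 2 * (q + 1) := by
  have h1 : Nat.card {y : G // y * x * y⁻¹ = x ∨ y * x * y⁻¹ = x⁻¹} =
      Set.ncard ({y : G | y * x * y⁻¹ = x} ∪ {y : G | y * x * y⁻¹ = x⁻¹}) :=
    Nat.card_coe_set_eq ({y : G | y * x * y⁻¹ = x} ∪ {y : G | y * x * y⁻¹ = x⁻¹})
  rw [h1]
  have h2 := Set.ncard_union_le {y : G | y * x * y⁻¹ = x} {y : G | y * x * y⁻¹ = x⁻¹}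
  have h3 := h.card_conj_le x hx1 hx x
  have h4 := h.card_conj_le x hx1 hx x⁻¹
  omega

end Cfsg.Agent.Lib.Helper19.Solz
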