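import Cfsg.Agent.Lib.Helper19.Solz.Defs

set_option autoImplicit false

namespace Cfsg.Agent.Lib.Helper19.Solz

variable {G : Type*} [Group G] {q : ℕ}

/-- a pair inside a proper subgroup generates a solvable group. -/
theorem MaxH.sol_of_mem (m : MaxH G q) (H : Subgroup G) (hH : H ≠ ⊤) (x y : G) (hx : x ∈ H) (hy : y ∈ H) :
    Group.IsSolvable ↥(Subgroup.closure ({x, y} : Set G)) := by
  apply m.proper_solv
  intro htop
  apply hH
  rw [eq_top_iff, ← htop, Subgroup.closure_le]
  intro z hz
  rcases hz with rfl | hz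
  · exact hx
  · rw [Set.mem_singleton_iff] at hz
    rw [hz]
    exact hy

/-- `⟨x,y⟩` is solvable iff it is proper iff it lies in a maximal subgroup. -/
theorem MaxH.sol_iff [Finite G] (m : MaxH G q) (x y : G) :
    Group.IsSolvable ↥(Subgroup.closure ({x, y} : Set G)) ↔ ∃ M : Subgroup G, IsCoatom M ∧ x ∈ M ∧ y ∈ M := by
  constructor
  · intro hs
    have hne : Subgroup.closure ({x, y} : Set G) ≠ ⊤ := by
      intro htop
      apply m.not_solv
      rw [htop] at hs
      exact Group.isSolvable_of_surjective (f := (⊤ : Subgroup G).subtype)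
        (fun g => ⟨⟨g, Subgroup.mem_top g⟩, rfl⟩)
    rcases eq_top_or_exists_le_coatom (Subgroup.closure ({x, y} : Set G)) with h | ⟨M, hM, hle⟩
    · exact absurd h hne
    · exact ⟨M, hM, hle (Subgroup.subset_closure (by simp)), hle (Subgroup.subset_closure (by simp))⟩
  · rintro ⟨M, hM, hx, hy⟩
    exact m.sol_of_mem M hM.1 x y hx hy

end Cfsg.Agent.Lib.Helper19.Solz
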