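import Mathlib

/-!
# Solubilizers in `PSL₂(2^p)`: abstract set-up

`S3 G Ω q`: `G` acts on `q + 1` points (`q = 2 ^ n ≥ 4`), has order `(q+1) q (q-1)` and only the identity
fixes three distinct points (so the action is sharply 3-transitive).
`MaxH G q`: the list of maximal subgroups.
-/

set_option autoImplicit false

namespace Cfsg.Agent.Lib.Helper19.Solz

structure S3 (G Ω : Type*) [Group G] [MulAction G Ω] (q : ℕ) : Prop where
  finG : Finite G
  finΩ : Finite Ω
  hq4 : 4 ≤ q
  hpow : ∃ n : ℕ, q = 2 ^ n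
  cardΩ : Nat.card Ω = q + 1
  cardG : Nat.card G = (q + 1) * q * (q - 1)
  fix3 : ∀ (g : G) (a b c : Ω), a ≠ b → a ≠ c → b ≠ c → g • a = a → g • b = b → g • c = c → g = 1

structure MaxH (G : Type*) [Group G] (q : ℕ) : Prop where
  proper_solv : ∀ H : Subgroup G, H ≠ ⊤ → Group.IsSolvable H
  not_solv : ¬ Group.IsSolvable G
  coatom : ∀ M : Subgroup G, IsCoatom M → Nat.card M = q * (q - 1) ∨
    Nonempty (M ≃* DihedralGroup (q - 1)) ∨ Nonempty (M ≃* DihedralGroup (q + 1))

end Cfsg.Agent.Lib.Helper19.Solz
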