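import Cfsg.Agent.Lib.Helper19.Solz.Defs

set_option autoImplicit false

namespace Cfsg.Agent.Lib.Helper19.Solz

variable {G : Type*} [Group G]

open DihedralGroup in
theorem dih_odd_aux (n : ℕ) (X Y : DihedralGroup n) (hX : Odd (orderOf X)) :
    Y * X * Y⁻¹ = X ∨ Y * X * Y⁻¹ = X⁻¹ := by
  cases X with
  | r i =>
    cases Y with
    | r j => left; simp
    | sr j => right; simp
  | sr i =>
    rw [DihedralGroup.orderOf_sr] at hX
    exact absurd hX (by decide)

open DihedralGroup in
theorem dih_invol_aux (n : ℕ) (hn : Odd n) (X Y : DihedralGroup n) (hX : X ^ 2 = 1) (hX1 : X ≠ 1) :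
    Y ^ 2 = 1 ∨ (X * Y) ^ 2 = 1 := by
  cases X with
  | r i =>
    exfalso
    apply hX1
    rw [pow_two, DihedralGroup.r_mul_r, DihedralGroup.one_def] at hX
    have h2 : i + i = 0 := by
      injection hX
    obtain ⟨k, hk⟩ := hn
    have h0 : ((2 * k + 1 : ℕ) : ZMod n) = 0 := by rw [← hk]; exact ZMod.natCast_self n
    have : i = ((2 * k + 1 : ℕ) : ZMod n) * i - k * (i + i) := by push_cast; ring
    rw [h0, h2] at this
    rw [this, DihedralGroup.one_def]; simp
  | sr i =>
    cases Y with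
    | r j => right; simp [pow_two]
    | sr j => left; simp [pow_two]

/-- in a dihedral group `D_n`, an element of odd order is a rotation, so every element centralises or inverts it. -/
theorem dih_odd (n : ℕ) (M : Subgroup G) (e : M ≃* DihedralGroup n) (x : G) (hxM : x ∈ M)
    (hx : Odd (orderOf x)) (m : G) (hm : m ∈ M) : m * x * m⁻¹ = x ∨ m * x * m⁻¹ = x⁻¹ := by
  have ho : orderOf (e ⟨x, hxM⟩) = orderOf x := by
    rw [MulEquiv.orderOf_eq, Subgroup.orderOf_mk]
  rcases dih_odd_aux n (e ⟨x, hxM⟩) (e ⟨m, hm⟩) (ho ▸ hx) with h | h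
  · left
    rw [← map_inv, ← map_mul, ← map_mul, e.injective.eq_iff] at h
    exact congrArg Subtype.val h
  · right
    rw [← map_inv, ← map_inv, ← map_mul, ← map_mul, e.injective.eq_iff] at h
    exact congrArg Subtype.val h

/-- in `D_n`, `n` odd, an involution is a reflection: any `y` is a reflection (`y² = 1`) or a rotation (inverted,
i.e. `(x y)² = 1`). -/
theorem dih_invol (n : ℕ) (hn : Odd n) (M : Subgroup G) (e : M ≃* DihedralGroup n) (x : G) (hxM : x ∈ M)
    (hx : x ^ 2 = 1) (hx1 : x ≠ 1) (y : G) (hy : y ∈ M) : y ^ 2 = 1 ∨ (x * y) ^ 2 = 1 := by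
  have h1 : (e ⟨x, hxM⟩) ^ 2 = 1 := by
    rw [← map_pow, ← map_one e, e.injective.eq_iff]
    exact Subtype.ext hx
  have h2 : e ⟨x, hxM⟩ ≠ 1 := by
    rw [Ne, ← map_one e, e.injective.eq_iff]
    intro h
    exact hx1 (congrArg Subtype.val h)
  rcases dih_invol_aux n hn (e ⟨x, hxM⟩) (e ⟨y, hy⟩) h1 h2 with h | h
  · left
    rw [← map_pow, ← map_one e, e.injective.eq_iff] at h
    exact congrArg Subtype.val h
  · right
    rw [← map_mul, ← map_pow, ← map_one e, e.injective.eq_iff] at h
    exact congrArg Subtype.val h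

end Cfsg.Agent.Lib.Helper19.Solz
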