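import Cfsg.Agent.Lib.Helper19.Solz.Defs

set_option autoImplicit false

namespace Cfsg.Agent.Lib.Helper19.Solz

variable {G : Type*} [Group G]

/-- two elements `x`, `y` with `x² = 1` and `(xy)² = 1` generate a solvable (metacyclic) group:
`x y x⁻¹ = y⁻¹`, all commutators lie in the abelian `⟨y⟩`
(e.g. `Cfsg.Agent.Lib.Helper41.Dickson.solvable_of_comm_mem`, file `Lib/Helper41/Dickson/Solv.lean`). -/
theorem solvable_of_inverts (x y : G) (hx : x ^ 2 = 1) (hxy : (x * y) ^ 2 = 1) :
    Group.IsSolvable ↥(Subgroup.closure ({x, y} : Set G)) := by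
  have hxi : x⁻¹ = x := by rw [inv_eq_iff_mul_eq_one, ← sq, hx]
  have hc : x * y * x⁻¹ = y⁻¹ := by
    rw [hxi, eq_inv_iff_mul_eq_one]
    rw [sq] at hxy
    simpa [mul_assoc] using hxy
  have hcz : ∀ k : ℤ, x * y ^ k * x⁻¹ = (y ^ k)⁻¹ := by
    intro k
    rw [← conj_zpow, hc, inv_zpow]
  set K := Subgroup.closure ({x, y} : Set G) with hK
  have hxK : x ∈ K := Subgroup.subset_closure (by simp)
  have hyK : y ∈ K := Subgroup.subset_closure (by simp)
  have hZK : Subgroup.zpowers y ≤ K := by
    rw [Subgroup.zpowers_le]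
    exact hyK
  have hnorm : K ≤ Subgroup.normalizer (Subgroup.zpowers y : Set G) := by
    rw [hK, Subgroup.closure_le]
    intro g hg
    simp only [Set.mem_insert_iff, Set.mem_singleton_iff] at hg
    rcases hg with rfl | rfl
    · rw [SetLike.mem_coe, Subgroup.mem_normalizer_iff]
      intro h
      constructor
      · rintro ⟨k, rfl⟩
        show g * y ^ k * g⁻¹ ∈ _
        rw [hcz]
        exact inv_mem ⟨k, rfl⟩
      · rintro ⟨k, hk⟩
        have hk' : y ^ k = g * h * g⁻¹ := hk
        have e : h = g * y ^ k * g⁻¹ := by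
          rw [hk', hxi]
          have : g * g = 1 := by rw [← sq, hx]
          calc h = (g * g) * h * (g * g) := by rw [this]; simp
            _ = g * (g * h * g) * g := by group
        rw [e, hcz]
        exact inv_mem ⟨k, rfl⟩
    · exact Subgroup.le_normalizer (Subgroup.mem_zpowers g)
  let N : Subgroup K := (Subgroup.zpowers y).subgroupOf K
  have hN : N.Normal := (Subgroup.normal_subgroupOf_iff_le_normalizer hZK).2 hnorm
  have s1 : Group.IsSolvable N := by
    apply Group.isSolvable_of_comm
    rintro ⟨⟨a, ha⟩, ha'⟩ ⟨⟨b, hb⟩, hb'⟩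
    rw [Subgroup.mem_subgroupOf] at ha' hb'
    obtain ⟨k, hk⟩ := ha'
    obtain ⟨l, hl⟩ := hb'
    apply Subtype.ext
    apply Subtype.ext
    change a * b = b * a
    have hk' : y ^ k = a := hk
    have hl' : y ^ l = b := hl
    rw [← hk', ← hl', ← zpow_add, ← zpow_add, add_comm]
  have s2 : Group.IsSolvable (K ⧸ N) := by
    have key : ∀ (g : G) (hg : g ∈ K), (QuotientGroup.mk (⟨g, hg⟩ : K) : K ⧸ N) ∈
        Subgroup.zpowers (QuotientGroup.mk (⟨x, hxK⟩ : K) : K ⧸ N) := by
      intro g hg
      induction hg using Subgroup.closure_induction with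
      | mem g hg =>
        simp only [Set.mem_insert_iff, Set.mem_singleton_iff] at hg
        rcases hg with rfl | rfl
        · exact Subgroup.mem_zpowers _
        · have : (QuotientGroup.mk (⟨g, hyK⟩ : K) : K ⧸ N) = 1 := by
            rw [QuotientGroup.eq_one_iff, Subgroup.mem_subgroupOf]
            exact Subgroup.mem_zpowers g
          rw [this]
          exact one_mem _
      | one => exact one_mem _
      | mul a b ha hb iha ihb => exact mul_mem iha ihb
      | inv a ha iha => exact inv_mem iha
    apply Group.isSolvable_of_comm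
    intro a b
    obtain ⟨⟨a, ha⟩, rfl⟩ := QuotientGroup.mk_surjective a
    obtain ⟨⟨b, hb⟩, rfl⟩ := QuotientGroup.mk_surjective b
    obtain ⟨k, hk⟩ := key a ha
    obtain ⟨l, hl⟩ := key b hb
    rw [← hk, ← hl]
    show _ ^ k * _ ^ l = _ ^ l * _ ^ k
    rw [← zpow_add, ← zpow_add, add_comm]
  exact Group.isSolvable_of_ker_le_range N.subtype (QuotientGroup.mk' N) (by
    rw [QuotientGroup.ker_mk', Subgroup.range_subtype])

/-- two involutions generate a solvable group (`closure {x,y} = closure {x, x*y}` and `solvable_of_inverts`). -/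
theorem solvable_of_invols (x y : G) (hx : x ^ 2 = 1) (hy : y ^ 2 = 1) :
    Group.IsSolvable ↥(Subgroup.closure ({x, y} : Set G)) := by
  have e : Subgroup.closure ({x, y} : Set G) = Subgroup.closure ({x, x * y} : Set G) := by
    apply le_antisymm
    · rw [Subgroup.closure_le]
      intro g hg
      simp only [Set.mem_insert_iff, Set.mem_singleton_iff] at hg
      rcases hg with rfl | rfl
      · exact Subgroup.subset_closure (by simp)
      · have h1 : x ∈ Subgroup.closure ({x, x * g} : Set G) := Subgroup.subset_closure (by simp)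
        have h2 : x * g ∈ Subgroup.closure ({x, x * g} : Set G) :=
          Subgroup.subset_closure (by simp)
        have h3 := mul_mem (inv_mem h1) h2
        rwa [inv_mul_cancel_left] at h3
    · rw [Subgroup.closure_le]
      intro g hg
      simp only [Set.mem_insert_iff, Set.mem_singleton_iff] at hg
      rcases hg with rfl | rfl
      · exact Subgroup.subset_closure (by simp)
      · exact mul_mem (Subgroup.subset_closure (by simp)) (Subgroup.subset_closure (by simp))
  rw [e]
  apply solvable_of_inverts x (x * y) hx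
  have h1 : x * x = 1 := by rw [← sq, hx]
  rw [← mul_assoc, h1, one_mul, hy]

end Cfsg.Agent.Lib.Helper19.Solz
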