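import Cfsg.Agent.Lib.Helper19.Solz.Basic

set_option autoImplicit false

namespace Cfsg.Agent.Lib.Helper19.Solz

open MulAction

variable {G Ω : Type*} [Group G] [MulAction G Ω] {q : ℕ}

/-- fixed point congruence for a single element of prime power order. -/
theorem card_fix_modEq_aux [Finite Ω] (t : G) (p k : ℕ) [Fact p.Prime] (ht : t ^ p ^ k = 1) :
    Nat.card Ω ≡ Nat.card {c : Ω // t • c = c} [MOD p] := by
  classical
  have := Fintype.ofFinite Ω
  have hf : (MulAction.toEndHom t : Function.End Ω) ^ p ^ k = 1 := by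
    rw [← map_pow, ht, map_one]
  have hmod := Equiv.Perm.card_fixedPoints_modEq hf
  rw [← Nat.card_eq_fintype_card, ← Nat.card_eq_fintype_card] at hmod
  exact hmod

/-- an element of 2-power order fixing two distinct points is trivial (`|G_ab| = q - 1` is odd). -/
theorem S3.two_elt_fix2 (h : S3 G Ω q) (t : G) (k : ℕ) (ht : t ^ 2 ^ k = 1) (a b : Ω) (hab : a ≠ b)
    (ha : t • a = a) (hb : t • b = b) : t = 1 := by
  have := h.finG
  have hcard := h.basic.2.2.1 a b hab
  have hmem : t ∈ stabilizer G a ⊓ stabilizer G b := ⟨ha, hb⟩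
  have h1 : orderOf t ∣ q - 1 := by
    rw [← hcard]
    have := orderOf_dvd_natCard (⟨t, hmem⟩ : ↥(stabilizer G a ⊓ stabilizer G b))
    rwa [Subgroup.orderOf_mk] at this
  have h2 : orderOf t ∣ 2 ^ k := orderOf_dvd_of_pow_eq_one ht
  obtain ⟨n, hn⟩ := h.hpow
  have hq4 := h.hq4
  have hn0 : n ≠ 0 := by
    rintro rfl
    omega
  have hodd : Nat.Coprime (2 ^ k) (q - 1) := by
    apply Nat.Coprime.pow_left
    rw [Nat.coprime_two_left]
    have : Even q := by
      rw [hn]
      exact (Nat.even_pow.2 ⟨even_two, hn0⟩)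
    exact Nat.Even.sub_odd (by omega) this odd_one
  exact orderOf_eq_one_iff.1 (Nat.eq_one_of_dvd_coprimes hodd h2 h1)

/-- an involution has exactly one fixed point (`q + 1` is odd, so at least one; `two_elt_fix2`). -/
theorem S3.fix_invol (h : S3 G Ω q) (t : G) (ht : t ^ 2 = 1) (ht1 : t ≠ 1) : ∃! c : Ω, t • c = c := by
  classical
  have := h.finG
  have := h.finΩ
  have := Fintype.ofFinite Ω
  obtain ⟨n, hn⟩ := h.hpow
  have hq4 := h.hq4
  have hn0 : n ≠ 0 := by
    rintro rfl
    omega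
  have heven : Even q := by
    rw [hn]
    exact (Nat.even_pow.2 ⟨even_two, hn0⟩)
  have hex : ∃ c : Ω, t • c = c := by
    by_contra hcon
    push Not at hcon
    have hmod := card_fix_modEq_aux (Ω := Ω) t 2 1 (by rwa [pow_one])
    have hempty : Nat.card {c : Ω // t • c = c} = 0 := by
      have : IsEmpty {c : Ω // t • c = c} := ⟨fun x => hcon x.1 x.2⟩
      exact Nat.card_of_isEmpty
    rw [hempty, h.cardΩ] at hmod
    have : (q + 1) % 2 = 0 := hmod
    obtain ⟨r, hr⟩ := heven
    omega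
  obtain ⟨c, hc⟩ := hex
  refine ⟨c, hc, fun d hd => ?_⟩
  by_contra hne
  exact ht1 (h.two_elt_fix2 t 1 (by rwa [pow_one]) d c hne hd hc)

end Cfsg.Agent.Lib.Helper19.Solz
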