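import Cfsg.Agent.Lib.Helper19.Solz.Basic
import Cfsg.Agent.Lib.Helper19.Solz.Fix

set_option autoImplicit false

namespace Cfsg.Agent.Lib.Helper19.Solz

open MulAction

variable {G Ω : Type*} [Group G] [MulAction G Ω] {q : ℕ}

/-- common part: a power `z` of `x` of odd prime order `r`, with at most two fixed points. -/
theorem S3.fix2_aux (h : S3 G Ω q) (x : G) (hx1 : x ≠ 1) (hodd : Odd (orderOf x)) :
    ∃ (r k : ℕ), r.Prime ∧ 3 ≤ r ∧ r ∣ orderOf x ∧
      Nat.card {c : Ω // x ^ k • c = c} ≤ 2 ∧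
      q + 1 ≡ Nat.card {c : Ω // x ^ k • c = c} [MOD r] := by
  classical
  have := h.finG
  have := h.finΩ
  have := Fintype.ofFinite Ω
  have ho1 : orderOf x ≠ 1 := fun e => hx1 (orderOf_eq_one_iff.1 e)
  have ho0 : orderOf x ≠ 0 := (orderOf_pos x).ne'
  set r := (orderOf x).minFac with hr
  have hrp : r.Prime := Nat.minFac_prime ho1
  have hrd : r ∣ orderOf x := Nat.minFac_dvd _
  have hr2 : r ≠ 2 := by
    intro e
    rw [e] at hrd
    exact (Nat.not_even_iff_odd.2 hodd) (even_iff_two_dvd.2 hrd)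
  have hr3 : 3 ≤ r := by
    have := hrp.two_le
    omega
  have hz : orderOf (x ^ (orderOf x / r)) = r := orderOf_pow_orderOf_div ho0 hrd
  set z := x ^ (orderOf x / r) with hzdef
  have hz1 : z ≠ 1 := by
    intro e
    rw [e, orderOf_one] at hz
    omega
  have hzr : z ^ r ^ 1 = 1 := by
    rw [pow_one, ← hz]
    exact pow_orderOf_eq_one z
  have : Fact r.Prime := ⟨hrp⟩
  have hmod := card_fix_modEq_aux (Ω := Ω) z r 1 hzr
  rw [h.cardΩ] at hmod
  refine ⟨r, orderOf x / r, hrp, hr3, hrd, ?_, hmod⟩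
  show Nat.card {c : Ω // z • c = c} ≤ 2
  rw [Nat.subtype_card (Finset.univ.filter fun c : Ω => z • c = c) (fun c => by simp)]
  by_contra hcon
  push Not at hcon
  obtain ⟨a, ha, b, hb, c, hc, hab, hac, hbc⟩ := Finset.two_lt_card.1 hcon
  simp only [Finset.mem_filter, Finset.mem_univ, true_and] at ha hb hc
  exact hz1 (h.fix3 z a b c hab hac hbc ha hb hc)

theorem S3.even_q (h : S3 G Ω q) : Even q := by
  obtain ⟨n, hn⟩ := h.hpow
  have hq4 := h.hq4
  have hn0 : n ≠ 0 := by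
    rintro rfl
    omega
  rw [hn]
  exact (Nat.even_pow.2 ⟨even_two, hn0⟩)

/-- `z = x ^ (o(x)/r)` of prime order `r ∣ q - 1`, `r ≥ 3`: `|Fix z| ≡ q + 1 ≡ 2 (mod r)` and `≤ 2`, so `= 2`;
`x` commutes with `z`, so permutes `Fix z = {a,b}`; odd order, so fixes both. -/
theorem S3.fix_split (h : S3 G Ω q) (x : G) (hx1 : x ≠ 1) (hx : orderOf x ∣ q - 1) :
    ∃ a b : Ω, a ≠ b ∧ x • a = a ∧ x • b = b := by
  classical
  have := h.finG
  have := h.finΩ
  have := Fintype.ofFinite Ω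
  have hq4 := h.hq4
  have hqodd : Odd (q - 1) := Nat.Even.sub_odd (by omega) h.even_q odd_one
  have hodd : Odd (orderOf x) := Odd.of_dvd_nat hqodd hx
  obtain ⟨r, k, hrp, hr3, hrd, hle, hmod⟩ := h.fix2_aux x hx1 hodd
  obtain ⟨s, hs⟩ := hrd.trans hx
  have hq1 : q + 1 = r * s + 2 := by omega
  have hcard : Nat.card {c : Ω // x ^ k • c = c} = 2 := by
    unfold Nat.ModEq at hmod
    rw [hq1, Nat.mul_add_mod, Nat.mod_eq_of_lt (by omega), Nat.mod_eq_of_lt (by omega)] at hmod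
    exact hmod.symm
  rw [Nat.subtype_card (Finset.univ.filter fun c : Ω => x ^ k • c = c) (fun c => by simp)] at hcard
  obtain ⟨a, b, hab, hF⟩ := Finset.card_eq_two.1 hcard
  have hmem : ∀ c : Ω, x ^ k • c = c ↔ c = a ∨ c = b := by
    intro c
    have : c ∈ (Finset.univ.filter fun c : Ω => x ^ k • c = c) ↔ c ∈ ({a, b} : Finset Ω) := by
      rw [hF]
    simpa using this
  have hperm : ∀ c : Ω, x ^ k • c = c → x ^ k • (x • c) = x • c := by
    intro c hc
    rw [smul_smul, ← pow_succ, pow_succ', mul_smul, hc]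
  have ha := (hmem (x • a)).1 (hperm a ((hmem a).2 (Or.inl rfl)))
  have hb := (hmem (x • b)).1 (hperm b ((hmem b).2 (Or.inr rfl)))
  have hinj : x • a ≠ x • b := fun e => hab (MulAction.injective x e)
  -- `x ^ 2` fixes both
  have h2a : x ^ 2 ∈ stabilizer G a := by
    rw [mem_stabilizer_iff, sq, mul_smul]
    rcases ha with e | e
    · rw [e, e]
    · rcases hb with e' | e'
      · rw [e, e']
      · exact absurd (e.trans e'.symm) hinj
  have h2b : x ^ 2 ∈ stabilizer G b := by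
    rw [mem_stabilizer_iff, sq, mul_smul]
    rcases hb with e | e
    · rcases ha with e' | e'
      · exact absurd (e'.trans e.symm) hinj
      · rw [e, e']
    · rw [e, e]
  obtain ⟨m, hm⟩ := hodd
  have hxx : x = (x ^ 2) ^ (m + 1) := by
    rw [← pow_mul]
    have : 2 * (m + 1) = orderOf x + 1 := by omega
    rw [this, pow_succ, pow_orderOf_eq_one, one_mul]
  refine ⟨a, b, hab, ?_, ?_⟩
  · have := pow_mem h2a (m + 1)
    rw [← hxx] at this
    exact this
  · have := pow_mem h2b (m + 1)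
    rw [← hxx] at this
    exact this

/-- `z = x ^ (o(x)/r)` of prime order `r ∣ q + 1`, `r ≥ 3`: `|Fix z| ≡ 0 (mod r)` and `≤ 2`, so `= 0`. -/
theorem S3.fix_nonsplit (h : S3 G Ω q) (x : G) (hx1 : x ≠ 1) (hx : orderOf x ∣ q + 1) (c : Ω) :
    x • c ≠ c := by
  have := h.finG
  have := h.finΩ
  have hqodd : Odd (q + 1) := h.even_q.add_one
  have hodd : Odd (orderOf x) := Odd.of_dvd_nat hqodd hx
  obtain ⟨r, k, hrp, hr3, hrd, hle, hmod⟩ := h.fix2_aux x hx1 hodd
  obtain ⟨s, hs⟩ := hrd.trans hx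
  have hcard : Nat.card {c : Ω // x ^ k • c = c} = 0 := by
    unfold Nat.ModEq at hmod
    rw [hs, Nat.mul_mod_right, Nat.mod_eq_of_lt (by omega)] at hmod
    exact hmod.symm
  intro hc
  have hk : x ^ k • c = c := by
    have : x ∈ stabilizer G c := hc
    exact pow_mem this k
  have hpos : 0 < Nat.card {c : Ω // x ^ k • c = c} := by
    have : Nonempty {c : Ω // x ^ k • c = c} := ⟨⟨c, hk⟩⟩
    exact Nat.card_pos
  omega

end Cfsg.Agent.Lib.Helper19.Solz
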