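import Cfsg.Agent.Lib.Helper19.Solz.Fix

set_option autoImplicit false

namespace Cfsg.Agent.Lib.Helper19.Solz

open MulAction

variable {G Ω : Type*} [Group G] [MulAction G Ω] {q : ℕ}

/-- Fix `d ≠ c`.  `≥`: `G_c ⊓ G_d → {involutions of G_c}`, `g ↦ g x g⁻¹` is injective.  `≤`: `t ↦ t • d` is injective
on the involutions of `G_c` with values `≠ c`. -/
theorem S3.card_sq_stab (h : S3 G Ω q) (x : G) (hx : x ^ 2 = 1) (hx1 : x ≠ 1) (c : Ω) (hc : x • c = c) :
    Nat.card {t : G // t ^ 2 = 1 ∧ t • c = c} = q := by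
  have := h.finG
  have := h.finΩ
  have hq4 := h.hq4
  obtain ⟨d, hdc, -⟩ := exists_ne2 (Ω := Ω) (by rw [h.cardΩ]; omega) c c
  apply le_antisymm
  · let φ : Option {t : G // t ^ 2 = 1 ∧ t • c = c} → Ω := fun o => o.elim c (fun t => t.1 • d)
    have hφ : Function.Injective φ := by
      intro o o' hoo
      rcases o with _ | ⟨t, ht2, htc⟩ <;> rcases o' with _ | ⟨t', ht2', htc'⟩
      · rfl
      · exfalso
        have h1 : c = t' • d := hoo
        exact hdc (smul_left_cancel t' (h1.symm.trans htc'.symm))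
      · exfalso
        have h1 : t • d = c := hoo
        exact hdc (smul_left_cancel t (h1.trans htc.symm))
      · have hoo' : t • d = t' • d := hoo
        have htt : t = t' := by
          by_cases hfd : t • d = d
          · have e1 : t = 1 := h.two_elt_fix2 t 1 (by simpa using ht2) c d (Ne.symm hdc) htc hfd
            have e2 : t' = 1 := h.two_elt_fix2 t' 1 (by simpa using ht2') c d (Ne.symm hdc) htc'
              (hoo'.symm.trans hfd)
            rw [e1, e2]
          · have tinv' : t'⁻¹ = t' := inv_eq_of_mul_eq_one_left (by rw [← pow_two]; exact ht2')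
            have e1 : (t'⁻¹ * t) • c = c := by rw [mul_smul, htc, inv_smul_eq_iff, htc']
            have e2 : (t'⁻¹ * t) • d = d := by rw [mul_smul, hoo', inv_smul_smul]
            have e3 : (t'⁻¹ * t) • (t • d) = t • d := by
              rw [mul_smul, smul_smul t t d, ← pow_two, ht2, one_smul, tinv', hoo']
            have hne : c ≠ t • d := fun hcd => hdc (smul_left_cancel t (hcd.symm.trans htc.symm))
            have e4 := h.fix3 _ c d (t • d) (Ne.symm hdc) hne (Ne.symm hfd) e1 e2 e3
            exact (inv_mul_eq_one.mp e4).symm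
        subst htt
        rfl
    have h1 := Nat.card_le_card_of_injective φ hφ
    rw [Finite.card_option, h.cardΩ] at h1
    omega
  · let ψ : Option ↥(stabilizer G c ⊓ stabilizer G d) → {t : G // t ^ 2 = 1 ∧ t • c = c} := fun o =>
      o.elim ⟨1, by simp, by simp⟩ (fun g => ⟨g.1 * x * g.1⁻¹, by rw [conj_pow, hx]; simp, by
        have hg : g.1 • c = c := g.2.1
        have hg' : g.1⁻¹ • c = c := by rw [inv_smul_eq_iff, hg]
        rw [mul_smul, mul_smul, hg', hc, hg]⟩)
    have hxd : x • d ≠ d := fun hxd => hx1 (h.two_elt_fix2 x 1 (by simpa using hx) c d (Ne.symm hdc) hc hxd)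
    have hxdc : c ≠ x • d := fun hcd => hdc (smul_left_cancel x (hcd.symm.trans hc.symm))
    have hψ : Function.Injective ψ := by
      intro o o' hoo
      rcases o with _ | g <;> rcases o' with _ | g'
      · rfl
      · exfalso
        have h1 : (1 : G) = g'.1 * x * g'.1⁻¹ := congrArg Subtype.val hoo
        exact hx1 (conj_eq_one_iff.mp h1.symm)
      · exfalso
        have h1 : g.1 * x * g.1⁻¹ = (1 : G) := congrArg Subtype.val hoo
        exact hx1 (conj_eq_one_iff.mp h1)
      · have h1 : g.1 * x * g.1⁻¹ = g'.1 * x * g'.1⁻¹ := congrArg Subtype.val hoo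
        have hcomm : (g'.1⁻¹ * g.1) * x = x * (g'.1⁻¹ * g.1) := by
          calc (g'.1⁻¹ * g.1) * x = g'.1⁻¹ * (g.1 * x * g.1⁻¹) * g.1 := by group
            _ = g'.1⁻¹ * (g'.1 * x * g'.1⁻¹) * g.1 := by rw [h1]
            _ = x * (g'.1⁻¹ * g.1) := by group
        have gc : g.1 • c = c := g.2.1
        have gd : g.1 • d = d := g.2.2
        have gc' : g'.1 • c = c := g'.2.1
        have gd' : g'.1 • d = d := g'.2.2
        have e1 : (g'.1⁻¹ * g.1) • c = c := by rw [mul_smul, gc, inv_smul_eq_iff, gc']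
        have e2 : (g'.1⁻¹ * g.1) • d = d := by rw [mul_smul, gd, inv_smul_eq_iff, gd']
        have e3 : (g'.1⁻¹ * g.1) • (x • d) = x • d := by
          rw [smul_smul, hcomm, mul_smul, e2]
        have e4 := h.fix3 _ c d (x • d) (Ne.symm hdc) hxdc (Ne.symm hxd) e1 e2 e3
        have e5 : g'.1 = g.1 := inv_mul_eq_one.mp e4
        have e6 : g = g' := Subtype.ext e5.symm
        rw [e6]
    have h1 := Nat.card_le_card_of_injective ψ hψ
    rw [Finite.card_option, h.basic.2.2.1 c d (Ne.symm hdc)] at h1
    omega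

end Cfsg.Agent.Lib.Helper19.Solz
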