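import Cfsg.Agent.Lib.Helper19.Solz.Inv1

set_option autoImplicit false

namespace Cfsg.Agent.Lib.Helper19.Solz

open MulAction

variable {G Ω : Type*} [Group G] [MulAction G Ω] {q : ℕ}

/-- every point is fixed by `q` elements of square one. -/
theorem S3.card_sq_stab' (h : S3 G Ω q) (x : G) (hx : x ^ 2 = 1) (hx1 : x ≠ 1) (c : Ω) :
    Nat.card {t : G // t ^ 2 = 1 ∧ t • c = c} = q := by
  obtain ⟨c0, hc0, -⟩ := h.fix_invol x hx hx1
  obtain ⟨g, hg⟩ := h.basic.1 c0 c
  refine h.card_sq_stab (g * x * g⁻¹) (by rw [conj_pow, hx]; simp) (fun h1 => hx1 (conj_eq_one_iff.mp h1)) c ?_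
  have hg' : g⁻¹ • c = c0 := by rw [inv_smul_eq_iff, hg]
  rw [mul_smul, mul_smul, hg', hc0, hg]

/-- every point `c'` is fixed by an involution, so has `q - 1` involutions by `card_sq_stab`; every involution has
exactly one fixed point (`fix_invol`): `(q+1)(q-1)` involutions, plus `1`. -/
theorem S3.card_sq (h : S3 G Ω q) (x : G) (hx : x ^ 2 = 1) (hx1 : x ≠ 1) :
    Nat.card {t : G // t ^ 2 = 1} = q ^ 2 := by
  classical
  have := h.finG
  have := h.finΩ
  have hq4 := h.hq4
  have := Fintype.ofFinite G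
  have := Fintype.ofFinite Ω
  have key : ∀ c : Ω, (Finset.univ.filter (fun t : G => t ^ 2 = 1 ∧ t • c = c)).card = q := by
    intro c
    rw [← Fintype.card_subtype, ← Nat.card_eq_fintype_card]
    exact h.card_sq_stab' x hx hx1 c
  set I : Finset G := Finset.univ.filter (fun t : G => t ^ 2 = 1 ∧ t ≠ 1) with hI
  have hfib : ∀ c : Ω, (I.filter (fun t => t • c = c)).card = q - 1 := by
    intro c
    have h1 : I.filter (fun t => t • c = c) =
        (Finset.univ.filter (fun t : G => t ^ 2 = 1 ∧ t • c = c)).erase 1 := by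
      ext t
      simp only [hI, Finset.mem_filter, Finset.mem_univ, true_and, Finset.mem_erase]
      tauto
    rw [h1, Finset.card_erase_of_mem (by simp), key]
  have hpt : ∀ t ∈ I, (Finset.univ.filter (fun c : Ω => t • c = c)).card = 1 := by
    intro t ht
    rw [hI, Finset.mem_filter] at ht
    obtain ⟨c, hc, huniq⟩ := h.fix_invol t ht.2.1 ht.2.2
    rw [Finset.card_eq_one]
    refine ⟨c, ?_⟩
    ext e
    simp only [Finset.mem_filter, Finset.mem_univ, true_and, Finset.mem_singleton]
    exact ⟨fun he => huniq e he, fun he => he ▸ hc⟩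
  have hdc := Finset.sum_card_bipartiteAbove_eq_sum_card_bipartiteBelow (s := I)
    (t := (Finset.univ : Finset Ω)) (fun (t : G) (c : Ω) => t • c = c)
  have hIcard : I.card = (q + 1) * (q - 1) := by
    have h1 : ∑ t ∈ I, (Finset.bipartiteAbove (fun (t : G) (c : Ω) => t • c = c) Finset.univ t).card = I.card := by
      rw [Finset.card_eq_sum_ones]
      exact Finset.sum_congr rfl (fun t ht => hpt t ht)
    have h2 : ∑ c ∈ (Finset.univ : Finset Ω),
        (Finset.bipartiteBelow (fun (t : G) (c : Ω) => t • c = c) I c).card = (q + 1) * (q - 1) := by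
      have h3 : ∀ c ∈ (Finset.univ : Finset Ω),
          (Finset.bipartiteBelow (fun (t : G) (c : Ω) => t • c = c) I c).card = q - 1 := fun c _ => hfib c
      rw [Finset.sum_congr rfl h3, Finset.sum_const, Finset.card_univ,
        ← Nat.card_eq_fintype_card, h.cardΩ, smul_eq_mul]
    rw [← h1, hdc, h2]
  have hJ : Finset.univ.filter (fun t : G => t ^ 2 = 1) = insert 1 I := by
    ext t
    simp only [hI, Finset.mem_filter, Finset.mem_univ, true_and, Finset.mem_insert]
    constructor
    · intro ht
      by_cases h1 : t = 1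
      · exact Or.inl h1
      · exact Or.inr ⟨ht, h1⟩
    · rintro (rfl | ht)
      · simp
      · exact ht.1
  rw [Nat.card_eq_fintype_card, Fintype.card_subtype, hJ, Finset.card_insert_of_notMem (by simp [hI]), hIcard]
  obtain ⟨r, rfl⟩ : ∃ r, q = r + 1 := ⟨q - 1, by omega⟩
  simp only [Nat.add_sub_cancel]
  ring

end Cfsg.Agent.Lib.Helper19.Solz
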