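import Cfsg.Agent.Lib.Helper19.Solz.Inv2

set_option autoImplicit false

namespace Cfsg.Agent.Lib.Helper19.Solz

open MulAction

variable {G Ω : Type*} [Group G] [MulAction G Ω] {q : ℕ}

/-- `J = {t : t² = 1}`.  The set is `G_c ⊔ (J \ G_c) ⊔ (x⁻¹ J \ G_c)`: `|G_c| = q(q-1)`, `|J \ G_c| = q² - q`,
`y ↦ x y` is a bijection `x⁻¹J \ G_c → J \ G_c`, and `J ∩ x⁻¹J ⊆ G_c`. -/
theorem S3.card_invol_set (h : S3 G Ω q) (x : G) (hx : x ^ 2 = 1) (hx1 : x ≠ 1) (c : Ω) (hc : x • c = c) :
    Nat.card {y : G // y • c = c ∨ y ^ 2 = 1 ∨ (x * y) ^ 2 = 1} = 3 * q * (q - 1) := by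
  classical
  have := h.finG
  have := h.finΩ
  have hq4 := h.hq4
  have := Fintype.ofFinite G
  have hxinv : x⁻¹ • c = c := by rw [inv_smul_eq_iff, hc]
  set S1 : Finset G := Finset.univ.filter (fun y : G => y • c = c) with hS1
  set S2 : Finset G := Finset.univ.filter (fun y : G => y ^ 2 = 1 ∧ ¬ y • c = c) with hS2
  set S3' : Finset G := Finset.univ.filter (fun y : G => (x * y) ^ 2 = 1 ∧ ¬ y • c = c) with hS3
  have c1 : S1.card = q * (q - 1) := by
    have h1 := h.basic.2.1 c
    rw [Nat.card_eq_fintype_card] at h1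
    rw [← h1, hS1, ← Fintype.card_subtype]
    exact Fintype.card_congr (Equiv.refl _)
  have cJ : (Finset.univ.filter (fun y : G => y ^ 2 = 1)).card = q ^ 2 := by
    rw [← Fintype.card_subtype, ← Nat.card_eq_fintype_card]
    exact h.card_sq x hx hx1
  have cJc : (Finset.univ.filter (fun y : G => y ^ 2 = 1 ∧ y • c = c)).card = q := by
    rw [← Fintype.card_subtype, ← Nat.card_eq_fintype_card]
    exact h.card_sq_stab x hx hx1 c hc
  have c2 : S2.card + q = q ^ 2 := by
    rw [← cJ, ← cJc, hS2, add_comm, ← Finset.card_union_of_disjoint]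
    · congr 1
      ext y
      simp only [Finset.mem_union, Finset.mem_filter, Finset.mem_univ, true_and]
      tauto
    · rw [Finset.disjoint_left]
      intro y hy hy'
      simp only [Finset.mem_filter, Finset.mem_univ, true_and] at hy hy'
      exact hy'.2 hy.2
  have c3 : S3'.card = S2.card := by
    have h1 : S3' = S2.image (fun y => x⁻¹ * y) := by
      ext y
      simp only [hS3, hS2, Finset.mem_image, Finset.mem_filter, Finset.mem_univ, true_and]
      constructor
      · rintro ⟨hy1, hy2⟩
        refine ⟨x * y, ⟨hy1, fun hc' => hy2 ?_⟩, by group⟩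
        rw [mul_smul] at hc'
        have h3 : x • y • c = x • c := hc'.trans hc.symm
        exact smul_left_cancel x h3
      · rintro ⟨z, ⟨hz1, hz2⟩, rfl⟩
        refine ⟨by rw [mul_inv_cancel_left]; exact hz1, fun hc' => hz2 ?_⟩
        rw [mul_smul, inv_smul_eq_iff, hc] at hc'
        exact hc'
    rw [h1, Finset.card_image_of_injective _ (mul_right_injective x⁻¹)]
  have d12 : Disjoint S1 S2 := by
    rw [Finset.disjoint_left]
    intro y hy hy'
    simp only [hS1, hS2, Finset.mem_filter, Finset.mem_univ, true_and] at hy hy'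
    exact hy'.2 hy
  have d123 : Disjoint (S1 ∪ S2) S3' := by
    rw [Finset.disjoint_left]
    intro y hy hy'
    simp only [hS1, hS2, hS3, Finset.mem_union, Finset.mem_filter, Finset.mem_univ, true_and] at hy hy'
    rcases hy with hy | hy
    · exact hy'.2 hy
    · apply hy.2
      have hy2 : y * y = 1 := by rw [← pow_two]; exact hy.1
      have hx2 : x * x = 1 := by rw [← pow_two]; exact hx
      have hxy : x * y * (x * y) = 1 := by rw [← pow_two]; exact hy'.1
      have hcomm : x * y = y * x := by
        calc x * y = x * y * (x * y) * (y * x) * (x * x)⁻¹ * 1 := by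
              rw [hx2]
              have : x * y * (x * y) * (y * x) = x * y * x * (y * y) * x := by group
              rw [this, hy2]
              have : x * y * x * 1 * x * 1⁻¹ * 1 = x * y * (x * x) := by group
              rw [this, hx2, mul_one]
          _ = y * x := by rw [hxy, hx2]; group
      obtain ⟨c0, hc0, huniq⟩ := h.fix_invol x hx hx1
      have e1 : x • (y • c) = y • c := by rw [smul_smul, hcomm, mul_smul, hc]
      rw [huniq _ e1, huniq _ hc]
  have hU : Finset.univ.filter (fun y : G => y • c = c ∨ y ^ 2 = 1 ∨ (x * y) ^ 2 = 1) = (S1 ∪ S2) ∪ S3' := by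
    ext y
    simp only [hS1, hS2, hS3, Finset.mem_union, Finset.mem_filter, Finset.mem_univ, true_and]
    tauto
  rw [Nat.card_eq_fintype_card, Fintype.card_subtype, hU, Finset.card_union_of_disjoint d123,
    Finset.card_union_of_disjoint d12, c1, c3]
  obtain ⟨r, rfl⟩ : ∃ r, q = r + 1 := ⟨q - 1, by omega⟩
  simp only [Nat.add_sub_cancel]
  have : S2.card = (r + 1) * r := by nlinarith
  rw [this]; ring

end Cfsg.Agent.Lib.Helper19.Solz
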