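import Cfsg.Agent.Lib.Helper19.Solz.Cov
import Cfsg.Agent.Lib.Helper19.Solz.Dih
import Cfsg.Agent.Lib.Helper19.Solz.DihSolv
import Cfsg.Agent.Lib.Helper19.Solz.Borel
import Cfsg.Agent.Lib.Helper19.Solz.Inv3

set_option autoImplicit false

namespace Cfsg.Agent.Lib.Helper19.Solz

open MulAction

variable {G Ω : Type*} [Group G] [MulAction G Ω] {q : ℕ}

theorem S3.even_qA (h : S3 G Ω q) : Even q := by
  obtain ⟨n, hn⟩ := h.hpow
  have h4 := h.hq4
  rcases Nat.eq_zero_or_pos n with rfl | hpos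
  · simp at hn; omega
  · rw [hn]
    exact (Nat.even_pow.2 ⟨even_two, by omega⟩)

theorem S3.stab_ne_topA (h : S3 G Ω q) (c : Ω) : stabilizer G c ≠ ⊤ := by
  intro htop
  have h1 := (h.basic).2.1 c
  rw [htop, Subgroup.card_top, h.cardG] at h1
  have h4 := h.hq4
  have h5 : 0 < q * (q - 1) := Nat.mul_pos (by omega) (by omega)
  rw [mul_assoc] at h1
  nlinarith

/-- `→`: `MaxH.sol_iff` gives a coatom `M ∋ x, y`.  `|M| = q(q-1)`: `M = G_d` (`borel_of_card`), `d = c` by `fix_invol`.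
`M ≃ D_(q∓1)`: `dih_invol` (`q ∓ 1` odd).  `←`: `sol_of_mem` with `G_c ≠ ⊤` (orders), `solvable_of_invols`,
`solvable_of_inverts`. -/
theorem S3.sol_iff_invol (h : S3 G Ω q) (m : MaxH G q) (x : G) (hx : x ^ 2 = 1) (hx1 : x ≠ 1) (c : Ω)
    (hc : x • c = c) (y : G) :
    Group.IsSolvable ↥(Subgroup.closure ({x, y} : Set G)) ↔ (y • c = c ∨ y ^ 2 = 1 ∨ (x * y) ^ 2 = 1) := by
  haveI := h.finG
  have hev := h.even_qA
  have h4 := h.hq4
  constructor
  · intro hs
    obtain ⟨M, hM, hxM, hyM⟩ := (m.sol_iff x y).1 hs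
    rcases m.coatom M hM with hcard | ⟨⟨e⟩⟩ | ⟨⟨e⟩⟩
    · obtain ⟨d, rfl⟩ := h.borel_of_card M hcard
      obtain ⟨c', -, huniq⟩ := h.fix_invol x hx hx1
      have hd : d = c := (huniq d hxM).trans (huniq c hc).symm
      subst hd
      exact Or.inl hyM
    · exact Or.inr (dih_invol (q - 1) (Nat.Even.sub_odd (by omega) hev odd_one) M e x hxM hx hx1 y hyM)
    · exact Or.inr (dih_invol (q + 1) (hev.add_one) M e x hxM hx hx1 y hyM)
  · rintro (hy | hy | hy)
    · exact m.sol_of_mem (stabilizer G c) (h.stab_ne_topA c) x y hc hy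
    · exact solvable_of_invols x y hx hy
    · exact solvable_of_inverts x y hx hy

end Cfsg.Agent.Lib.Helper19.Solz
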