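import Cfsg.Agent.Lib.Helper19.Solz.Basic

set_option autoImplicit false

namespace Cfsg.Agent.Lib.Helper19.Solz

open MulAction

variable {G Ω : Type*} [Group G] [MulAction G Ω] {q : ℕ}

/-- 2-transitivity gives a swap (use `S3.basic`: move `a` to `b` by `g`, then `g • b ≠ b` to `a` inside `G_b`). -/
theorem S3.exists_swap (h : S3 G Ω q) (a b : Ω) (hab : a ≠ b) : ∃ w : G, w • a = b ∧ w • b = a := by
  obtain ⟨g, hg⟩ := h.basic.1 a b
  have hgb : b ≠ g • b := by
    intro e
    apply hab
    have : g • a = g • b := by rw [hg, ← e]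
    exact MulAction.injective g this
  obtain ⟨k, hk1, hk2⟩ := h.basic.2.2.2 b (g • b) a hgb hab.symm
  exact ⟨k * g, by rw [mul_smul, hg, hk1], by rw [mul_smul, hk2]⟩

/-- `G_a ∪ G_b ∪ (swaps)` has `2q(q-1)` elements:
`q(q-1) + q(q-1) - (q-1) + (q-1)`; the swaps form the coset `w (G_a ⊓ G_b)`. -/
theorem S3.card_split_set (h : S3 G Ω q) (a b : Ω) (hab : a ≠ b) :
    Nat.card {y : G // y • a = a ∨ y • b = b ∨ (y • a = b ∧ y • b = a)} = 2 * q * (q - 1) := by
  classical
  have := h.finG
  have := Fintype.ofFinite G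
  obtain ⟨w, hw1, hw2⟩ := h.exists_swap a b hab
  set SA : Finset G := Finset.univ.filter fun y => y • a = a with hSA
  set SB : Finset G := Finset.univ.filter fun y => y • b = b with hSB
  set SC : Finset G := Finset.univ.filter fun y => y • a = b ∧ y • b = a with hSC
  have cA : SA.card = q * (q - 1) := by
    rw [← h.basic.2.1 a]
    exact (Nat.subtype_card SA (fun x => by simp [hSA, mem_stabilizer_iff])).symm
  have cB : SB.card = q * (q - 1) := by
    rw [← h.basic.2.1 b]
    exact (Nat.subtype_card SB (fun x => by simp [hSB, mem_stabilizer_iff])).symm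
  have cAB : (SA ∩ SB).card = q - 1 := by
    rw [← h.basic.2.2.1 a b hab]
    exact (Nat.subtype_card (SA ∩ SB) (fun x => by
      simp [hSA, hSB, mem_stabilizer_iff, Subgroup.mem_inf])).symm
  have cC : SC.card = (SA ∩ SB).card := by
    refine Finset.card_nbij' (fun y => w⁻¹ * y) (fun y => w * y) ?_ ?_ ?_ ?_
    · intro y hy
      simp only [hSC, hSA, hSB, Finset.coe_filter, Finset.mem_univ, true_and, Set.mem_ofPred_eq,
        Finset.coe_inter, Set.mem_inter_iff] at hy ⊢
      constructor
      · rw [mul_smul, hy.1, inv_smul_eq_iff, hw1]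
      · rw [mul_smul, hy.2, inv_smul_eq_iff, hw2]
    · intro y hy
      simp only [hSC, hSA, hSB, Finset.coe_filter, Finset.mem_univ, true_and, Set.mem_ofPred_eq,
        Finset.coe_inter, Set.mem_inter_iff] at hy ⊢
      constructor
      · rw [mul_smul, hy.1, hw1]
      · rw [mul_smul, hy.2, hw2]
    · intro y _
      simp
    · intro y _
      simp
  have hdisj : Disjoint (SA ∪ SB) SC := by
    rw [Finset.disjoint_left]
    intro y hy hy'
    simp only [hSA, hSB, hSC, Finset.mem_union, Finset.mem_filter, Finset.mem_univ, true_and]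
      at hy hy'
    rcases hy with e | e
    · exact hab (e.symm.trans hy'.1)
    · exact hab (hy'.2.symm.trans e)
  have htot : Nat.card {y : G // y • a = a ∨ y • b = b ∨ (y • a = b ∧ y • b = a)}
      = ((SA ∪ SB) ∪ SC).card :=
    Nat.subtype_card _ (fun x => by
      simp only [hSA, hSB, hSC, Finset.mem_union, Finset.mem_filter, Finset.mem_univ, true_and]
      tauto)
  rw [htot, Finset.card_union_of_disjoint hdisj, cC]
  have h1 := Finset.card_union_add_card_inter SA SB
  rw [cA, cB] at h1
  rw [h1]
  ring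

end Cfsg.Agent.Lib.Helper19.Solz
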