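import Cfsg.Agent.Lib.Helper19.Solz.Cov
import Cfsg.Agent.Lib.Helper19.Solz.Dih
import Cfsg.Agent.Lib.Helper19.Solz.Borel
import Cfsg.Agent.Lib.Helper19.Solz.Swap

set_option autoImplicit false

namespace Cfsg.Agent.Lib.Helper19.Solz

open MulAction

variable {G Ω : Type*} [Group G] [MulAction G Ω] {q : ℕ}

theorem S3.even_q'' (h : S3 G Ω q) : Even q := by
  obtain ⟨n, hn⟩ := h.hpow
  have h4 := h.hq4
  rcases Nat.eq_zero_or_pos n with rfl | hpos
  · simp at hn; omega
  · rw [hn]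
    exact (Nat.even_pow.2 ⟨even_two, by omega⟩)

theorem S3.stab_ne_top' (h : S3 G Ω q) (c : Ω) : stabilizer G c ≠ ⊤ := by
  intro htop
  have h1 := (h.basic).2.1 c
  rw [htop, Subgroup.card_top, h.cardG] at h1
  have h4 := h.hq4
  have h5 : 0 < q * (q - 1) := Nat.mul_pos (by omega) (by omega)
  rw [mul_assoc] at h1
  nlinarith

theorem coprime_aux3 (q : ℕ) (hq : Even q) (h4 : 4 ≤ q) : Nat.Coprime (q - 1) (2 * (q + 1)) := by
  obtain ⟨k, rfl⟩ := hq
  apply Nat.Coprime.mul_right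
  · rw [Nat.coprime_comm, Nat.coprime_two_left]
    exact ⟨k - 1, by omega⟩
  · have h1 : k + k + 1 = (k + k - 1) + 2 := by omega
    rw [h1, Nat.coprime_self_add_right]
    rw [Nat.coprime_comm, Nat.coprime_two_left]
    exact ⟨k - 1, by omega⟩

/-- the subgroup stabilising the pair `{a, b}` -/
def pairSub (G : Type*) {Ω : Type*} [Group G] [MulAction G Ω] (a b : Ω) : Subgroup G where
  carrier := {g | (g • a = a ∧ g • b = b) ∨ (g • a = b ∧ g • b = a)}
  one_mem' := Or.inl ⟨one_smul _ _, one_smul _ _⟩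
  mul_mem' := by
    rintro g g' (⟨h1, h2⟩ | ⟨h1, h2⟩) (⟨h3, h4⟩ | ⟨h3, h4⟩)
    · left; simp [mul_smul, h1, h2, h3, h4]
    · right; simp [mul_smul, h1, h2, h3, h4]
    · right; simp [mul_smul, h1, h2, h3, h4]
    · left; simp [mul_smul, h1, h2, h3, h4]
  inv_mem' := by
    rintro g (⟨h1, h2⟩ | ⟨h1, h2⟩)
    · left
      exact ⟨by rw [inv_smul_eq_iff, h1], by rw [inv_smul_eq_iff, h2]⟩
    · right
      exact ⟨by rw [inv_smul_eq_iff, h2], by rw [inv_smul_eq_iff, h1]⟩

theorem S3.exists_third (h : S3 G Ω q) (a b : Ω) : ∃ c : Ω, c ≠ a ∧ c ≠ b := by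
  haveI := h.finΩ
  by_contra hcon
  push_neg at hcon
  have hsub : (Set.univ : Set Ω) ⊆ {a, b} := by
    intro c _
    by_cases hca : c = a
    · left; exact hca
    · right; exact hcon c hca
  have h1 := Set.ncard_le_ncard hsub (Set.toFinite _)
  rw [Set.ncard_univ, h.cardΩ] at h1
  have h2 : ({a, b} : Set Ω).ncard ≤ 2 := (Set.ncard_insert_le a {b}).trans (by simp)
  have h4 := h.hq4
  omega

theorem S3.pairSub_ne_top (h : S3 G Ω q) (a b : Ω) : pairSub G a b ≠ ⊤ := by
  intro htop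
  obtain ⟨c, hca, hcb⟩ := h.exists_third a b
  obtain ⟨g, hg⟩ := (h.basic).1 a c
  have hmem : g ∈ pairSub G a b := by rw [htop]; exact Subgroup.mem_top g
  rcases hmem with ⟨h1, -⟩ | ⟨h1, -⟩
  · exact hca (hg.symm.trans h1)
  · exact hcb (hg.symm.trans h1)

/-- `→`: coatom `M ∋ x, y`.  `|M| = q(q-1)`: `M = G_d`, `d ∈ {a,b}` by `fix3`.  `M ≃ D_(q-1)`: `dih_odd` gives
`y x y⁻¹ = x^{±1}`, so `y` permutes `Fix x = {a,b}`.  `M ≃ D_(q+1)`: `o(x) ∣ gcd(q-1, 2(q+1)) = 1`, impossible.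
`←`: `sol_of_mem` with `G_a`, `G_b`, or the stabiliser of the set `{a,b}` (`≠ ⊤` by transitivity, there is a third
point). -/
theorem S3.sol_iff_split (h : S3 G Ω q) (m : MaxH G q) (x : G) (hx1 : x ≠ 1) (hx : orderOf x ∣ q - 1)
    (a b : Ω) (hab : a ≠ b) (ha : x • a = a) (hb : x • b = b) (y : G) :
    Group.IsSolvable ↥(Subgroup.closure ({x, y} : Set G)) ↔
      (y • a = a ∨ y • b = b ∨ (y • a = b ∧ y • b = a)) := by
  haveI := h.finG
  have hev := h.even_q''
  have h4 := h.hq4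
  have hfix : ∀ d : Ω, x • d = d → d = a ∨ d = b := by
    intro d hd
    by_contra hcon
    push_neg at hcon
    exact hx1 (h.fix3 x a b d hab (Ne.symm hcon.1) (Ne.symm hcon.2) ha hb hd)
  constructor
  · intro hs
    obtain ⟨M, hM, hxM, hyM⟩ := (m.sol_iff x y).1 hs
    rcases m.coatom M hM with hcard | ⟨⟨e⟩⟩ | ⟨⟨e⟩⟩
    · obtain ⟨d, rfl⟩ := h.borel_of_card M hcard
      rcases hfix d hxM with rfl | rfl
      · exact Or.inl hyM
      · exact Or.inr (Or.inl hyM)
    · have hodd : Odd (orderOf x) := (Nat.Even.sub_odd (by omega) hev odd_one).of_dvd_nat hx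
      have hkey : ∀ d : Ω, x • d = d → x • (y • d) = y • d := by
        intro d hd
        rcases dih_odd (q - 1) M e x hxM hodd y hyM with h1 | h1
        · calc x • (y • d) = (y * x * y⁻¹) • (y • d) := by rw [h1]
            _ = y • d := by simp [mul_smul, hd]
        · have h2 : x⁻¹ • (y • d) = y • d := by
            calc x⁻¹ • (y • d) = (y * x * y⁻¹) • (y • d) := by rw [h1]
              _ = y • d := by simp [mul_smul, hd]
          rw [inv_smul_eq_iff] at h2
          exact h2.symm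
      rcases hfix _ (hkey a ha) with h1 | h1
      · exact Or.inl h1
      · rcases hfix _ (hkey b hb) with h2 | h2
        · exact Or.inr (Or.inr ⟨h1, h2⟩)
        · exact Or.inr (Or.inl h2)
    · exfalso
      have hdvd : orderOf x ∣ Nat.card M := by
        have := orderOf_dvd_natCard (⟨x, hxM⟩ : M)
        rwa [Subgroup.orderOf_mk] at this
      rw [Nat.card_congr e.toEquiv, DihedralGroup.nat_card] at hdvd
      exact hx1 (orderOf_eq_one_iff.1 (Nat.eq_one_of_dvd_coprimes (coprime_aux3 q hev h4) hx hdvd))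
  · rintro (hy | hy | hy)
    · exact m.sol_of_mem (stabilizer G a) (h.stab_ne_top' a) x y ha hy
    · exact m.sol_of_mem (stabilizer G b) (h.stab_ne_top' b) x y hb hy
    · exact m.sol_of_mem (pairSub G a b) (h.pairSub_ne_top a b) x y (Or.inl ⟨ha, hb⟩) (Or.inr hy)

end Cfsg.Agent.Lib.Helper19.Solz
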