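import Cfsg.Agent.Lib.Helper19.Solz.Cov
import Cfsg.Agent.Lib.Helper19.Solz.Dih
import Cfsg.Agent.Lib.Helper19.Solz.Cent

set_option autoImplicit false

namespace Cfsg.Agent.Lib.Helper19.Solz

open MulAction

variable {G Ω : Type*} [Group G] [MulAction G Ω] {q : ℕ}

theorem S3.even_q' (h : S3 G Ω q) : Even q := by
  obtain ⟨n, hn⟩ := h.hpow
  have h4 := h.hq4
  rcases Nat.eq_zero_or_pos n with rfl | hpos
  · simp at hn; omega
  · rw [hn]
    exact (Nat.even_pow.2 ⟨even_two, by omega⟩)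

theorem coprime_aux1 (q : ℕ) (hq : Even q) (h4 : 4 ≤ q) : Nat.Coprime (q + 1) (q * (q - 1)) := by
  obtain ⟨k, rfl⟩ := hq
  apply Nat.Coprime.mul_right
  · simp
  · have h1 : k + k + 1 = (k + k - 1) + 2 := by omega
    rw [h1, Nat.coprime_self_add_left]
    rw [Nat.coprime_two_left]
    exact ⟨k - 1, by omega⟩

theorem coprime_aux2 (q : ℕ) (hq : Even q) (h4 : 4 ≤ q) : Nat.Coprime (q + 1) (2 * (q - 1)) := by
  obtain ⟨k, rfl⟩ := hq
  apply Nat.Coprime.mul_right
  · rw [Nat.coprime_comm, Nat.coprime_two_left]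
    exact ⟨k, by omega⟩
  · have h1 : k + k + 1 = (k + k - 1) + 2 := by omega
    rw [h1, Nat.coprime_self_add_left]
    rw [Nat.coprime_two_left]
    exact ⟨k - 1, by omega⟩

/-- `o(x) ∣ q + 1` is coprime to `q(q-1)` and to `2(q-1)`, so `M ≃ D_(q+1)`, `|M| = 2(q+1)`; `M ⊆ E(x)` by `dih_odd`;
`|E(x)| ≤ 2(q+1)` by `card_extcent_le`: equality of finite sets. -/
theorem S3.coatom_nonsplit (h : S3 G Ω q) (m : MaxH G q) (x : G) (hx1 : x ≠ 1) (hx : orderOf x ∣ q + 1)
    (M : Subgroup G) (hM : IsCoatom M) (hxM : x ∈ M) :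
    Nat.card M = 2 * (q + 1) ∧ ∀ y : G, y ∈ M ↔ (y * x * y⁻¹ = x ∨ y * x * y⁻¹ = x⁻¹) := by
  haveI := h.finG
  have hev := h.even_q'
  have h4 := h.hq4
  have hdvd : orderOf x ∣ Nat.card M := by
    have := orderOf_dvd_natCard (⟨x, hxM⟩ : M)
    rwa [Subgroup.orderOf_mk] at this
  have hne : orderOf x ≠ 1 := by
    intro h1
    exact hx1 (orderOf_eq_one_iff.1 h1)
  rcases m.coatom M hM with hcard | ⟨⟨e⟩⟩ | ⟨⟨e⟩⟩
  · exfalso
    rw [hcard] at hdvd
    exact hne (Nat.eq_one_of_dvd_coprimes (coprime_aux1 q hev h4) hx hdvd)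
  · exfalso
    rw [Nat.card_congr e.toEquiv, DihedralGroup.nat_card] at hdvd
    exact hne (Nat.eq_one_of_dvd_coprimes (coprime_aux2 q hev h4) hx hdvd)
  · have hcard : Nat.card M = 2 * (q + 1) := by
      rw [Nat.card_congr e.toEquiv, DihedralGroup.nat_card]
    refine ⟨hcard, ?_⟩
    have hodd : Odd (orderOf x) := (hev.add_one).of_dvd_nat hx
    have hsub : (M : Set G) ⊆ {y : G | y * x * y⁻¹ = x ∨ y * x * y⁻¹ = x⁻¹} :=
      fun y hy => dih_odd (q + 1) M e x hxM hodd y hy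
    have hle := h.card_extcent_le x hx1 hx
    have heq : (M : Set G) = {y : G | y * x * y⁻¹ = x ∨ y * x * y⁻¹ = x⁻¹} := by
      apply Set.eq_of_subset_of_ncard_le hsub _ (Set.toFinite _)
      rw [← Nat.card_coe_set_eq, ← Nat.card_coe_set_eq]
      calc _ ≤ 2 * (q + 1) := hle
        _ = _ := hcard.symm
    intro y
    have := Set.ext_iff.1 heq y
    simpa using this

/-- some coatom `M₀` contains `x` (`zpowers x ≠ ⊤` as `G` is not solvable); by `coatom_nonsplit` every coatom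
containing `x` has the same elements as `M₀`; with `MaxH.sol_iff` the solubilizer is `M₀`. -/
theorem S3.card_sol_nonsplit (h : S3 G Ω q) (m : MaxH G q) (x : G) (hx1 : x ≠ 1) (hx : orderOf x ∣ q + 1) :
    Nat.card {y : G // Group.IsSolvable ↥(Subgroup.closure ({x, y} : Set G))} = 2 * (q + 1) := by
  haveI := h.finG
  have hz : Subgroup.zpowers x ≠ ⊤ := by
    intro htop
    apply m.not_solv
    haveI : Group.IsSolvable (⊤ : Subgroup G) := by
      rw [← htop]
      infer_instance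
    exact Group.isSolvable_of_surjective (f := (⊤ : Subgroup G).subtype)
      (fun g => ⟨⟨g, Subgroup.mem_top g⟩, rfl⟩)
  rcases eq_top_or_exists_le_coatom (Subgroup.zpowers x) with h0 | ⟨M, hM, hle⟩
  · exact absurd h0 hz
  have hxM : x ∈ M := hle (Subgroup.mem_zpowers x)
  obtain ⟨hcard, hmem⟩ := h.coatom_nonsplit m x hx1 hx M hM hxM
  rw [← hcard]
  apply Nat.card_congr
  apply Equiv.subtypeEquivRight
  intro y
  rw [m.sol_iff x y]
  constructor
  · rintro ⟨M', hM', hxM', hyM'⟩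
    rw [hmem]
    exact ((h.coatom_nonsplit m x hx1 hx M' hM' hxM').2 y).1 hyM'
  · intro hy
    exact ⟨M, hM, hxM, hy⟩

end Cfsg.Agent.Lib.Helper19.Solz
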